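import Cfsg.Agent.StdSz.SzMaps
import Cfsg.Agent.LieRecognition.SzMatrix
import Cfsg.Prelude.Def_Solvable
import Cfsg.Prelude.Def_Transfer

set_option autoImplicit false

namespace Cfsg.Agent.H163.SuzAut

open Cfsg.Agent.StdSz.EquivMaps Cfsg.Agent.StdSz.SzMaps

variable {F : Type*} [Field F] [Fintype F] {m : ℕ}

/-- the power of Frobenius indexed by `Fin (2m+1)` -/
def P (i : Fin (2 * m + 1)) (x : F) : F := x ^ (2 ^ (i : ℕ))

theorem pow_mod (hF : Fintype.card F = 2 ^ (2 * m + 1)) (k : ℕ) (x : F) :
    x ^ (2 ^ k) = x ^ (2 ^ (k % (2 * m + 1))) := by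
  induction k using Nat.strong_induction_on with
  | _ k ih =>
    by_cases hk : k < 2 * m + 1
    · rw [Nat.mod_eq_of_lt hk]
    · have h1 : k = (k - (2 * m + 1)) + (2 * m + 1) := by omega
      have h2 : x ^ (2 ^ k) = x ^ (2 ^ (k - (2 * m + 1))) := by
        conv_lhs => rw [h1, pow_add, mul_comm, ← hF, pow_mul, FiniteField.pow_card]
      rw [h2, ih _ (by omega)]
      congr 2
      conv_rhs => rw [h1, Nat.add_mod_right]

theorem P_comp (hF : Fintype.card F = 2 ^ (2 * m + 1)) (i j : Fin (2 * m + 1)) (x : F) :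
    P (i + j) x = P i (P j x) := by
  unfold P
  rw [← pow_mul, ← pow_add, Fin.val_add, ← pow_mod hF, add_comm]

theorem P_add (hF : Fintype.card F = 2 ^ (2 * m + 1)) (i : Fin (2 * m + 1)) (x y : F) :
    P i (x + y) = P i x + P i y := by
  have := Cfsg.Agent.StdSz.EquivMaps.charP_two hF
  exact add_pow_char_pow ..

omit [Fintype F] in
theorem P_mul (i : Fin (2 * m + 1)) (x y : F) : P i (x * y) = P i x * P i y := mul_pow ..

omit [Fintype F] in
theorem P_zero (i : Fin (2 * m + 1)) : P i (0 : F) = 0 := by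
  unfold P; rw [zero_pow]; positivity

omit [Fintype F] in
theorem P_one (i : Fin (2 * m + 1)) : P i (1 : F) = 1 := one_pow _

omit [Fintype F] in
theorem P_eq_zero {i : Fin (2 * m + 1)} {x : F} (h : P i x = 0) : x = 0 := by
  unfold P at h
  exact pow_eq_zero_iff (by positivity) |>.1 h

theorem P_sum (hF : Fintype.card F = 2 ^ (2 * m + 1)) (i : Fin (2 * m + 1)) {ι : Type*} (s : Finset ι) (f : ι → F) :
    P i (∑ k ∈ s, f k) = ∑ k ∈ s, P i (f k) := by
  classical
  induction s using Finset.induction_on with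
  | empty => simp [P_zero]
  | insert a s ha ih => rw [Finset.sum_insert ha, Finset.sum_insert ha, P_add hF, ih]

theorem add_self (hF : Fintype.card F = 2 ^ (2 * m + 1)) (x : F) : x + x = 0 := by
  have := Cfsg.Agent.StdSz.EquivMaps.charP_two hF
  exact CharTwo.add_self_eq_zero x

def tt (hm : 1 ≤ m) : Fin (2 * m + 1) := ⟨m + 1, by omega⟩

theorem tt_add (hm : 1 ≤ m) : tt hm + tt hm = 1 := by
  apply Fin.ext
  rw [Fin.val_add, Fin.val_one']
  show (m + 1 + (m + 1)) % (2 * m + 1) = 1 % (2 * m + 1)
  rw [show m + 1 + (m + 1) = 1 + (2 * m + 1) by ring, Nat.add_mod_right]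

theorem tt_ne (hm : 1 ≤ m) : tt hm ≠ 0 := by
  intro h
  have := congrArg Fin.val h
  simp [tt] at this

theorem one_ne (hm : 1 ≤ m) : (1 : Fin (2 * m + 1)) ≠ 0 := by
  intro h
  have := congrArg Fin.val h
  rw [Fin.val_one', Nat.mod_eq_of_lt (by omega)] at this
  simp at this

theorem two_ne (hm : 1 ≤ m) : (1 : Fin (2 * m + 1)) + 1 ≠ 0 := by
  intro h
  have := congrArg Fin.val h
  rw [Fin.val_add, Fin.val_one', Nat.mod_eq_of_lt (a := 1) (by omega), Nat.mod_eq_of_lt (by omega)] at this
  simp at this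

/-- A pair of additive maps with `B (x * θ x) = A x * θ (A x)` is semilinear. -/
theorem semilinear (hm : 1 ≤ m) (hF : Fintype.card F = 2 ^ (2 * m + 1)) (A B : F → F)
    (hA : ∀ x y, A (x + y) = A x + A y) (hB : ∀ x y, B (x + y) = B x + B y)
    (hA0 : ∃ x, A x ≠ 0)
    (h : ∀ x, B (x * P (tt hm) x) = A x * P (tt hm) (A x)) :
    ∃ (l : F) (u : Fin (2 * m + 1)), l ≠ 0 ∧ ∀ x, A x = l * P u x := by
  set t := tt hm with ht
  obtain ⟨a, ha⟩ := exists_coeff hF (by omega) A hA
  obtain ⟨b, hb⟩ := exists_coeff hF (by omega) B hB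
  have ha' : ∀ x, A x = ∑ i, a i * P i x := ha
  have hb' : ∀ x, B x = ∑ i, b i * P i x := hb
  let c : Fin (2 * m + 1) → Fin (2 * m + 1) → F := fun i j =>
    (if j = i + t then b i else 0) + a i * P t (a (j - t))
  have hc : ∀ x y, B (x * P t y) + A x * P t (A y) = ∑ i, ∑ j, c i j * (P i x * P j y) := by
    intro x y
    have h1 : B (x * P t y) = ∑ i, ∑ j, (if j = i + t then b i else 0) * (P i x * P j y) := by
      rw [hb']
      apply Finset.sum_congr rfl
      intro i _
      rw [Finset.sum_eq_single (i + t)]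
      · rw [if_pos rfl, P_mul, ← P_comp hF]
      · intro j _ hj
        rw [if_neg hj, zero_mul]
      · intro hh
        exact absurd (Finset.mem_univ _) hh
    have h2 : A x * P t (A y) = ∑ i, ∑ j, (a i * P t (a (j - t))) * (P i x * P j y) := by
      rw [ha' x, ha' y, P_sum hF, Finset.sum_mul]
      apply Finset.sum_congr rfl
      intro i _
      rw [Finset.mul_sum]
      rw [← Equiv.sum_comp (Equiv.addRight t) (fun j => (a i * P t (a (j - t))) * (P i x * P j y))]
      apply Finset.sum_congr rfl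
      intro j _
      simp only [Equiv.coe_addRight, add_sub_cancel_right]
      rw [P_mul, ← P_comp hF, add_comm t j]
      ring
    rw [h1, h2, ← Finset.sum_add_distrib]
    apply Finset.sum_congr rfl
    intro i _
    rw [← Finset.sum_add_distrib]
    apply Finset.sum_congr rfl
    intro j _
    show _ = ((if j = i + t then b i else 0) + a i * P t (a (j - t))) * (P i x * P j y)
    ring
  have hf0 : ∀ x, B (x * P t x) + A x * P t (A x) = 0 := by
    intro x
    rw [h x, add_self hF]
  have hsym : ∀ x y, B (x * P t y) + A x * P t (A y) = B (y * P t x) + A y * P t (A x) := by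
    intro x y
    have h1 := hf0 (x + y)
    have h2 := hf0 x
    have h3 := hf0 y
    rw [P_add hF, hA, P_add hF] at h1
    have h4 : (x + y) * (P t x + P t y) = x * P t x + (x * P t y + (y * P t x + y * P t y)) := by ring
    rw [h4, hB, hB, hB] at h1
    have h5 := add_self hF (B (y * P t x) + A y * P t (A x))
    linear_combination h1 - h2 - h3 - h5
  have hcs : ∀ i j, c i j = c j i := by
    have h1 : c = fun i j => c j i := by
      apply coeff₂_unique hF (by omega)
      intro x y
      have e1 := hc x y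
      have e2 := hc y x
      rw [hsym x y, e2, Finset.sum_comm] at e1
      have e3 : ∑ i, ∑ j, c i j * (P i x * P j y) = ∑ i, ∑ j, c j i * (P i x * P j y) := by
        rw [← e1]
        apply Finset.sum_congr rfl
        intro i _
        apply Finset.sum_congr rfl
        intro j _
        ring
      exact e3
    intro i j
    exact congrFun (congrFun h1 i) j
  have hcd : ∀ i, c i i = 0 := by
    have h1 : (fun i => c i i) = fun _ => 0 := by
      apply coeff_unique hF (by omega)
      intro x
      -- x is a square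
      obtain ⟨y, hy⟩ : ∃ y : F, x = y ^ 2 := by
        refine ⟨x ^ (2 ^ (2 * m)), ?_⟩
        rw [← pow_mul, ← pow_succ, ← hF, FiniteField.pow_card]
      have h2 : ∑ i, ∑ j, c i j * (P i y * P j y) = 0 := by rw [← hc, hf0]
      have h3 : ∑ i, ∑ j, (if i = j then 0 else c i j * (P i y * P j y)) = 0 := by
        rw [← Finset.sum_product']
        apply Finset.sum_involution (fun p _ => (p.2, p.1))
        · rintro ⟨i, j⟩ _
          by_cases hij : i = j
          · simp [hij]
          · rw [if_neg hij, if_neg (fun hh => hij hh.symm), hcs j i, mul_comm (P j y)]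
            exact add_self hF _
        · rintro ⟨i, j⟩ _ hne hh
          apply hne
          have : j = i := congrArg Prod.fst hh
          simp [this]
        · intro p _
          exact Finset.mem_product.2 ⟨Finset.mem_univ _, Finset.mem_univ _⟩
        · rintro ⟨i, j⟩ _
          rfl
      have h4 : ∑ i, c i i * (P i y * P i y) = 0 := by
        have h5 : ∑ i, ∑ j, c i j * (P i y * P j y) = ∑ i, ∑ j, (if i = j then 0 else c i j * (P i y * P j y)) +
            ∑ i, c i i * (P i y * P i y) := by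
          rw [← Finset.sum_add_distrib]
          apply Finset.sum_congr rfl
          intro i _
          have h6 : c i i * (P i y * P i y) = ∑ j, (if i = j then c i j * (P i y * P j y) else 0) := by
            rw [Finset.sum_ite_eq]
            simp
          rw [h6, ← Finset.sum_add_distrib]
          apply Finset.sum_congr rfl
          intro j _
          by_cases hij : i = j
          · rw [if_pos hij, if_pos hij, zero_add]
          · rw [if_neg hij, if_neg hij, add_zero]
        rw [h5, h3, zero_add] at h2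
        exact h2
      simp only [zero_mul, Finset.sum_const_zero]
      rw [← h4]
      apply Finset.sum_congr rfl
      intro i _
      rw [hy]
      unfold P
      ring
    intro i
    exact congrFun h1 i
  -- the two consequences
  have k1 : ∀ i, a i ≠ 0 → a (i - t) = 0 := by
    intro i hi
    have h1 := hcd i
    have h2 : ¬ i = i + t := by
      intro hh
      exact tt_ne hm (by rw [← ht]; simpa using hh.symm)
    have h3 : (if i = i + t then b i else 0) + a i * P t (a (i - t)) = 0 := h1
    rw [if_neg h2, zero_add] at h3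
    exact P_eq_zero ((mul_eq_zero.1 h3).resolve_left hi)
  have k2 : ∀ i j, a i ≠ 0 → i ≠ j → j ≠ i + t → i ≠ j + t → a (j - t) = 0 := by
    intro i j hi _ h2 h3
    have h4 : (if j = i + t then b i else 0) + a i * P t (a (j - t)) =
      (if i = j + t then b j else 0) + a j * P t (a (i - t)) := hcs i j
    rw [if_neg h2, if_neg h3, zero_add, zero_add, k1 i hi, P_zero, mul_zero] at h4
    exact P_eq_zero ((mul_eq_zero.1 h4).resolve_left hi)
  have k3 : ∀ u w, a u ≠ 0 → a w ≠ 0 → w = u ∨ w + (t + t) = u := by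
    intro u w hu hw
    by_contra hcon
    push Not at hcon
    obtain ⟨h1, h2⟩ := hcon
    by_cases h3 : w + t = u
    · apply hw
      have := k1 u hu
      rwa [← h3, add_sub_cancel_right] at this
    · apply hw
      have := k2 u (w + t) hu (fun hh => h3 hh.symm) (fun hh => h1 (add_right_cancel hh))
        (fun hh => h2 (by rw [hh, add_assoc]))
      rwa [add_sub_cancel_right] at this
  obtain ⟨u, hu⟩ : ∃ u, a u ≠ 0 := by
    by_contra hcon
    push Not at hcon
    obtain ⟨x, hx⟩ := hA0
    apply hx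
    rw [ha']
    apply Finset.sum_eq_zero
    intro i _
    rw [hcon, zero_mul]
  have k4 : ∀ w, w ≠ u → a w = 0 := by
    intro w hw
    by_contra hw0
    have h1 := (k3 u w hu hw0).resolve_left hw
    have h2 := (k3 w u hw0 hu).resolve_left hw.symm
    rw [tt_add] at h1 h2
    rw [← h1, add_assoc] at h2
    have h3 : (1 : Fin (2 * m + 1)) + 1 = 0 := by
      have := h2
      simpa using this
    exact two_ne hm h3
  refine ⟨a u, u, hu, fun x => ?_⟩
  rw [ha', Finset.sum_eq_single u]
  · intro i _ hi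
    rw [k4 i hi, zero_mul]
  · intro hh
    exact absurd (Finset.mem_univ _) hh


/-! ### The automorphism group of the Suzuki 2-group -/

/-- coordinates on the Suzuki 2-group -/
structure Coord (F : Type*) [Field F] (hm : 1 ≤ m) (Q : Type*) [Group Q] where
  e : Q ≃ F × F
  mul : ∀ g h, e (g * h) = ((e g).1 + (e h).1, (e g).2 + (e h).2 + (e g).1 * P (tt hm) (e h).1)

namespace Coord

variable {hm : 1 ≤ m} {Q : Type*} [Group Q]

omit [Fintype F] in
theorem ext (C : Coord F hm Q) {g h : Q} (h1 : (C.e g).1 = (C.e h).1) (h2 : (C.e g).2 = (C.e h).2) : g = h :=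
  C.e.injective (Prod.ext h1 h2)

/-- the element with given coordinates -/
def u (C : Coord F hm Q) (a b : F) : Q := C.e.symm (a, b)

omit [Fintype F] in
@[simp] theorem e_u (C : Coord F hm Q) (a b : F) : C.e (C.u a b) = (a, b) := C.e.apply_symm_apply _

omit [Fintype F] in
theorem e_one (C : Coord F hm Q) : C.e 1 = (0, 0) := by
  have h := C.mul 1 1
  rw [mul_one] at h
  have h1 := congrArg Prod.fst h
  have h2 := congrArg Prod.snd h
  simp only at h1 h2
  have h3 : (C.e 1).1 = 0 := by linear_combination -h1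
  rw [h3, P_zero, mul_zero] at h2
  exact Prod.ext h3 (by show _ = (0 : F); linear_combination -h2)

/-- the homomorphism attached to the data -/
def hom (C : Coord F hm Q) (hF : Fintype.card F = 2 ^ (2 * m + 1)) (l : F) (i : Fin (2 * m + 1)) (c : F →+ F) :
    Q →* Q where
  toFun g := C.u (l * P i (C.e g).1) (l * P (tt hm) l * P i (C.e g).2 + c (C.e g).1)
  map_one' := by
    apply C.e.injective
    rw [C.e_u, C.e_one]
    simp [P_zero]
  map_mul' g h := by
    apply C.e.injective
    rw [C.e_u, C.mul (C.u _ _) (C.u _ _), C.e_u, C.e_u, C.mul g h]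
    simp only [P_add hF, P_mul, ← P_comp hF, map_add]
    rw [add_comm i (tt hm)]
    ext
    · show _ = _
      ring
    · show _ = _
      ring

theorem hom_injective (C : Coord F hm Q) (hF : Fintype.card F = 2 ^ (2 * m + 1)) {l : F} (hl : l ≠ 0)
    (i : Fin (2 * m + 1)) (c : F →+ F) : Function.Injective (C.hom hF l i c) := by
  rw [injective_iff_map_eq_one]
  intro g hg
  have h1 : C.e (C.hom hF l i c g) = (0, 0) := by rw [hg, C.e_one]
  have h2 : C.e (C.hom hF l i c g) = (l * P i (C.e g).1, l * P (tt hm) l * P i (C.e g).2 + c (C.e g).1) := C.e_u _ _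
  rw [h1] at h2
  have h3 : (0 : F) = l * P i (C.e g).1 := congrArg Prod.fst h2
  have h4 : (0 : F) = l * P (tt hm) l * P i (C.e g).2 + c (C.e g).1 := congrArg Prod.snd h2
  have h5 : (C.e g).1 = 0 := P_eq_zero ((mul_eq_zero.1 h3.symm).resolve_left hl)
  rw [h5, map_zero, add_zero] at h4
  have h6 : (C.e g).2 = 0 := P_eq_zero ((mul_eq_zero.1 h4.symm).resolve_left
    (mul_ne_zero hl (fun h => hl (P_eq_zero h))))
  apply C.e.injective
  rw [C.e_one]
  exact Prod.ext h5 h6

/-- the automorphism attached to the data -/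
noncomputable def aut [Finite Q] (C : Coord F hm Q) (hF : Fintype.card F = 2 ^ (2 * m + 1))
    (p : Fˣ × Fin (2 * m + 1) × (F →+ F)) : MulAut Q :=
  MulEquiv.ofBijective (C.hom hF p.1 p.2.1 p.2.2)
    (Finite.injective_iff_bijective.1 (C.hom_injective hF p.1.ne_zero _ _))

theorem e_aut [Finite Q] (C : Coord F hm Q) (hF : Fintype.card F = 2 ^ (2 * m + 1))
    (p : Fˣ × Fin (2 * m + 1) × (F →+ F)) (g : Q) :
    C.e (C.aut hF p g) = ((p.1 : F) * P p.2.1 (C.e g).1, (p.1 : F) * P (tt hm) (p.1 : F) * P p.2.1 (C.e g).2 + p.2.2 (C.e g).1) :=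
  C.e_u _ _

theorem P_injective (hm : 1 ≤ m) (hF : Fintype.card F = 2 ^ (2 * m + 1)) {i j : Fin (2 * m + 1)}
    (h : ∀ x : F, P i x = P j x) : i = j := by
  have h1 : (Pi.single i 1 : Fin (2 * m + 1) → F) = Pi.single j 1 := by
    apply coeff_unique hF (by omega)
    intro x
    rw [Finset.sum_eq_single i, Finset.sum_eq_single j]
    · simp only [Pi.single_eq_same, one_mul]
      exact h x
    · intro k _ hk
      rw [Pi.single_eq_of_ne hk, zero_mul]
    · intro hh; exact absurd (Finset.mem_univ _) hh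
    · intro k _ hk
      rw [Pi.single_eq_of_ne hk, zero_mul]
    · intro hh; exact absurd (Finset.mem_univ _) hh
  by_contra hne
  have h2 := congrFun h1 i
  rw [Pi.single_eq_same, Pi.single_eq_of_ne hne] at h2
  exact one_ne_zero h2

theorem aut_injective [Finite Q] (C : Coord F hm Q) (hF : Fintype.card F = 2 ^ (2 * m + 1)) :
    Function.Injective (C.aut hF) := by
  rintro ⟨l, i, c⟩ ⟨l', i', c'⟩ h
  have h1 : ∀ a : F, (l : F) * P i a = (l' : F) * P i' a ∧ c a = c' a := by
    intro a
    have h2 : C.e (C.aut hF (l, i, c) (C.u a 0)) = C.e (C.aut hF (l', i', c') (C.u a 0)) := by rw [h]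
    rw [C.e_aut, C.e_aut] at h2
    simp only [C.e_u, P_zero, mul_zero, zero_add] at h2
    exact ⟨congrArg Prod.fst h2, congrArg Prod.snd h2⟩
  have h3 : (l : F) = l' := by
    have := (h1 1).1
    rwa [P_one, P_one, mul_one, mul_one] at this
  have h4 : i = i' := P_injective hm hF (fun x => by
    have := (h1 x).1
    rw [h3] at this
    exact mul_left_cancel₀ l'.ne_zero this)
  have h5 : c = c' := AddMonoidHom.ext (fun a => (h1 a).2)
  rw [Units.ext h3, h4, h5]

theorem aut_surjective [Finite Q] (C : Coord F hm Q) (hF : Fintype.card F = 2 ^ (2 * m + 1)) :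
    Function.Surjective (C.aut hF) := by
  intro α
  set A : F → F := fun a => (C.e (α (C.u a 0))).1 with hA
  set D : F → F := fun a => (C.e (α (C.u a 0))).2 with hD
  set B : F → F := fun b => (C.e (α (C.u 0 b))).2 with hB
  have hu : ∀ a b c d, C.u a b * C.u c d = C.u (a + c) (b + d + a * P (tt hm) c) := by
    intro a b c d
    apply C.e.injective
    rw [C.mul, C.e_u, C.e_u, C.e_u]
  have hZ : ∀ b, (C.e (α (C.u 0 b))).1 = 0 := by
    intro b
    have h1 : α (C.u 0 b) * α (C.u 0 b) = 1 := by
      rw [← map_mul, hu]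
      have : C.u (0 + 0) (b + b + 0 * P (tt hm) 0) = (1 : Q) := by
        apply C.e.injective
        rw [C.e_u, C.e_one, add_self hF, zero_mul, add_self hF, add_zero]
      rw [this, map_one]
    have h2 := congrArg C.e h1
    rw [C.mul, C.e_one] at h2
    have h3 := congrArg Prod.snd h2
    simp only at h3
    rw [add_self hF, zero_add] at h3
    rcases mul_eq_zero.1 h3 with h | h
    · exact h
    · exact P_eq_zero h
  have hα : ∀ a b, C.e (α (C.u a b)) = (A a, D a + B b) := by
    intro a b
    have h1 : C.u a b = C.u a 0 * C.u 0 b := by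
      rw [hu]; simp [P_zero]
    rw [h1, map_mul, C.mul, hZ, P_zero, mul_zero, add_zero, add_zero]
  have h00 : C.e (α (C.u 0 0)) = (0, 0) := by
    have : C.u 0 0 = (1 : Q) := by
      apply C.e.injective
      rw [C.e_u, C.e_one]
    rw [this, map_one, C.e_one]
  have hD0 : D 0 = 0 := congrArg Prod.snd h00
  have hB0 : B 0 = 0 := congrArg Prod.snd h00
  have hmul : ∀ a b c d, (A (a + c), D (a + c) + B (b + d + a * P (tt hm) c)) =
      (A a + A c, (D a + B b) + (D c + B d) + A a * P (tt hm) (A c)) := by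
    intro a b c d
    rw [← hα, ← hu, map_mul, C.mul, hα, hα]
  have hAadd : ∀ x y, A (x + y) = A x + A y := fun x y => congrArg Prod.fst (hmul x 0 y 0)
  have hA0 : A 0 = 0 := congrArg Prod.fst h00
  have hBadd : ∀ x y, B (x + y) = B x + B y := by
    intro x y
    have h1 : D (0 + 0) + B (x + y + 0 * P (tt hm) 0) = (D 0 + B x) + (D 0 + B y) + A 0 * P (tt hm) (A 0) :=
      congrArg Prod.snd (hmul 0 x 0 y)
    rw [add_zero, zero_mul, add_zero, hD0, hA0, zero_mul] at h1
    simpa using h1
  have hDadd : ∀ x y, D (x + y) + B (x * P (tt hm) y) = D x + D y + A x * P (tt hm) (A y) := by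
    intro x y
    have h1 : D (x + y) + B (0 + 0 + x * P (tt hm) y) = (D x + B 0) + (D y + B 0) + A x * P (tt hm) (A y) :=
      congrArg Prod.snd (hmul x 0 y 0)
    simpa [hB0] using h1
  have hAB : ∀ x, B (x * P (tt hm) x) = A x * P (tt hm) (A x) := by
    intro x
    have h1 := hDadd x x
    rw [add_self hF, hD0, zero_add, add_self hF, zero_add] at h1
    exact h1
  have hA1 : A 1 ≠ 0 := by
    intro h
    have h1 := hAB 1
    rw [P_one, mul_one, h, zero_mul] at h1
    have h2 : C.e (α (C.u 0 1)) = (0, 0) := by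
      rw [hα, hA0, hD0, zero_add, h1]
    have h3 : C.u 0 1 = C.u 0 0 := α.injective (C.e.injective (by rw [h2, h00]))
    have h4 := congrArg C.e h3
    rw [C.e_u, C.e_u] at h4
    exact one_ne_zero (congrArg Prod.snd h4)
  obtain ⟨l, i, hl, hAl⟩ := semilinear hm hF A B hAadd hBadd ⟨1, hA1⟩ hAB
  have hBl : ∀ z, B z = l * P (tt hm) l * P i z := by
    intro z
    obtain ⟨x, hx⟩ : ∃ x : F, x * P (tt hm) x = z := by
      refine ⟨z ^ (2 ^ (m + 1) - 1), ?_⟩
      have := norm_surj hF z
      rw [pow_add, pow_one] at this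
      exact this
    rw [← hx, hAB, hAl, P_mul, P_mul, ← P_comp hF, ← P_comp hF, add_comm i (tt hm)]
    ring
  have hDl : ∀ x y, D (x + y) = D x + D y := by
    intro x y
    have h1 := hDadd x y
    have h2 : A x * P (tt hm) (A y) = B (x * P (tt hm) y) := by
      rw [hBl, hAl, hAl, P_mul, P_mul, ← P_comp hF, ← P_comp hF, add_comm i (tt hm)]
      ring
    rw [h2] at h1
    exact add_right_cancel h1
  refine ⟨(Units.mk0 l hl, i, AddMonoidHom.mk' D hDl), ?_⟩
  ext g
  apply C.e.injective
  rw [C.e_aut]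
  have hg : g = C.u (C.e g).1 (C.e g).2 := (C.e.symm_apply_apply g).symm
  conv_rhs => rw [hg, hα, hAl, hBl]
  simp only [Units.val_mk0, AddMonoidHom.mk'_apply]
  rw [add_comm]

/-- the number of additive endomorphisms -/
theorem card_addHom (hm : 1 ≤ m) (hF : Fintype.card F = 2 ^ (2 * m + 1)) :
    Nat.card (F →+ F) = 2 ^ ((2 * m + 1) ^ 2) := by
  let f : (Fin (2 * m + 1) → F) → (F →+ F) := fun c =>
    AddMonoidHom.mk' (fun x => ∑ i, c i * P i x) (by
      intro x y
      simp only [P_add hF, mul_add, Finset.sum_add_distrib])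
  have hf : Function.Bijective f := by
    constructor
    · intro c d hcd
      apply coeff_unique hF (by omega)
      intro x
      exact DFunLike.congr_fun hcd x
    · intro g
      obtain ⟨c, hc⟩ := exists_coeff hF (by omega) g (map_add g)
      refine ⟨c, AddMonoidHom.ext fun x => (hc x).symm⟩
  rw [← Nat.card_eq_of_bijective f hf, Nat.card_fun, Nat.card_eq_fintype_card, Nat.card_eq_fintype_card,
    hF, Fintype.card_fin, ← pow_mul, _root_.sq]

theorem card_mulAut [Finite Q] (C : Coord F hm Q) (hF : Fintype.card F = 2 ^ (2 * m + 1)) :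
    Nat.card (MulAut Q) = 2 ^ ((2 * m + 1) ^ 2) * ((2 * m + 1) * (2 ^ (2 * m + 1) - 1)) := by
  rw [← Nat.card_eq_of_bijective (C.aut hF) ⟨C.aut_injective hF, C.aut_surjective hF⟩, Nat.card_prod,
    Nat.card_prod, card_addHom hm hF, Nat.card_units, Nat.card_eq_fintype_card, hF, Nat.card_eq_fintype_card,
    Fintype.card_fin]
  ring

/-- the automorphisms acting trivially on the first coordinate -/
def cen (C : Coord F hm Q) : Subgroup (MulAut Q) where
  carrier := {α | ∀ g, (C.e (α g)).1 = (C.e g).1}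
  mul_mem' := by
    intro α β hα hβ g
    rw [MulAut.mul_apply, hα, hβ]
  one_mem' := fun g => rfl
  inv_mem' := by
    intro α hα g
    have := hα (α⁻¹ g)
    rw [MulAut.apply_inv_self] at this
    exact this.symm

omit [Fintype F] in
theorem mem_cen (C : Coord F hm Q) {α : MulAut Q} : α ∈ C.cen ↔ ∀ g, (C.e (α g)).1 = (C.e g).1 := Iff.rfl

theorem cen_iff [Finite Q] (C : Coord F hm Q) (hF : Fintype.card F = 2 ^ (2 * m + 1)) {α : MulAut Q} :
    α ∈ C.cen ↔ ∃ c, α = C.aut hF (1, 0, c) := by
  constructor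
  · intro hα
    obtain ⟨⟨l, i, c⟩, rfl⟩ := C.aut_surjective hF α
    have h1 : ∀ a : F, (l : F) * P i a = a := by
      intro a
      have := hα (C.u a 0)
      rw [C.e_aut, C.e_u] at this
      exact this
    have h2 : l = 1 := by
      have := h1 1
      rw [P_one, mul_one] at this
      exact Units.ext this
    have h3 : i = 0 := P_injective hm hF (fun x => by
      have := h1 x
      rw [h2, Units.val_one, one_mul] at this
      rw [this]
      simp [P])
    exact ⟨c, by rw [h2, h3]⟩
  · rintro ⟨c, rfl⟩ g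
    rw [C.e_aut]
    simp [P]

theorem cen_normal [Finite Q] (C : Coord F hm Q) (hF : Fintype.card F = 2 ^ (2 * m + 1)) : C.cen.Normal := by
  refine ⟨fun α hα β => ?_⟩
  intro g
  obtain ⟨⟨l, i, c⟩, rfl⟩ := C.aut_surjective hF β
  have h1 : ∀ x y : Q, (C.e x).1 = (C.e y).1 → (C.e (C.aut hF (l, i, c) x)).1 = (C.e (C.aut hF (l, i, c) y)).1 := by
    intro x y hxy
    rw [C.e_aut, C.e_aut]
    simp only [hxy]
  rw [MulAut.mul_apply, MulAut.mul_apply]
  rw [h1 _ _ (hα _), MulAut.apply_inv_self]

theorem cen_mul [Finite Q] (C : Coord F hm Q) (hF : Fintype.card F = 2 ^ (2 * m + 1)) (c d : F →+ F) :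
    C.aut hF (1, 0, c) * C.aut hF (1, 0, d) = C.aut hF (1, 0, c + d) := by
  ext g
  apply C.e.injective
  rw [MulAut.mul_apply, C.e_aut, C.e_aut, C.e_aut]
  simp [P]
  ring

theorem cen_elemAb [Finite Q] (C : Coord F hm Q) (hF : Fintype.card F = 2 ^ (2 * m + 1)) :
    Cfsg.IsElementaryAbelian 2 C.cen := by
  constructor
  · refine ⟨⟨?_⟩⟩
    rintro ⟨α, hα⟩ ⟨β, hβ⟩
    obtain ⟨c, rfl⟩ := (C.cen_iff hF).1 hα
    obtain ⟨d, rfl⟩ := (C.cen_iff hF).1 hβ
    apply Subtype.ext
    show C.aut hF (1, 0, c) * C.aut hF (1, 0, d) = C.aut hF (1, 0, d) * C.aut hF (1, 0, c)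
    rw [cen_mul, cen_mul, add_comm c d]
  · intro α hα
    obtain ⟨c, rfl⟩ := (C.cen_iff hF).1 hα
    rw [pow_two, cen_mul]
    ext g
    apply C.e.injective
    rw [C.e_aut]
    simp [P, add_self hF]

theorem card_cen [Finite Q] (C : Coord F hm Q) (hF : Fintype.card F = 2 ^ (2 * m + 1)) :
    Nat.card C.cen = 2 ^ ((2 * m + 1) ^ 2) := by
  rw [← card_addHom hm hF]
  symm
  apply Nat.card_eq_of_bijective (fun c => (⟨C.aut hF (1, 0, c), (C.cen_iff hF).2 ⟨c, rfl⟩⟩ : C.cen))
  constructor
  · intro c d h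
    have := C.aut_injective hF (congrArg Subtype.val h)
    simpa using this
  · rintro ⟨α, hα⟩
    obtain ⟨c, rfl⟩ := (C.cen_iff hF).1 hα
    exact ⟨c, rfl⟩

end Coord

/-- A normal `p`-subgroup of index prime to `p` is the `p`-core. -/
theorem pCore_eq {G : Type*} [Group G] [Finite G] {p : ℕ} [Fact p.Prime] {N : Subgroup G} (hn : N.Normal)
    (hp : IsPGroup p N) (hi : ¬ p ∣ N.index) : Cfsg.pCore p G = N := by
  apply le_antisymm
  · apply sSup_le
    rintro M ⟨hM, hMp⟩ x hx
    obtain ⟨k, hk⟩ := hMp ⟨x, hx⟩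
    have hk' : x ^ p ^ k = 1 := congrArg Subtype.val hk
    rw [← QuotientGroup.eq_one_iff (N := N)]
    have h1 : ((x : G ⧸ N)) ^ p ^ k = 1 := by rw [← QuotientGroup.mk_pow, hk', QuotientGroup.mk_one]
    have h2 : ((x : G ⧸ N)) ^ Nat.card (G ⧸ N) = 1 := pow_card_eq_one'
    have h3 : Nat.Coprime (p ^ k) (Nat.card (G ⧸ N)) := by
      apply Nat.Coprime.pow_left
      exact (Nat.Prime.coprime_iff_not_dvd Fact.out).2 hi
    have h4 : orderOf (x : G ⧸ N) ∣ 1 := by
      rw [← h3]
      exact Nat.dvd_gcd (orderOf_dvd_of_pow_eq_one h1) (orderOf_dvd_of_pow_eq_one h2)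
    exact orderOf_eq_one_iff.1 (Nat.dvd_one.1 h4)
  · exact le_sSup ⟨hn, hp⟩

end Cfsg.Agent.H163.SuzAut
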